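import Cfsg.Agent.Lib.Helper41.SnB.Q8Defs
import Cfsg.Agent.Lib.Helper87.SnB.SL3

set_option autoImplicit false

/-!
# [Q8-SL3x] for S2986: the derived group of `SL₂(3)` contains `-1`, and each of its elements
is `1`, `-1` or squares to `-1`.

Transport to `ZMod 3` (helper87's `nonempty_mulEquiv_sl23`), where everything is `decide`.
-/

namespace Cfsg.Agent.Lib.Helper85.SnB

open Cfsg.Agent.Lib.Helper41.SnB Cfsg.Agent.Lib.Helper87.SnB

open scoped commutatorElement

/-- `-1` in `SL₂(ZMod 3)`. -/
def sl23N : SL23 := ⟨!![-1, 0; 0, -1], by simp [Matrix.det_fin_two]⟩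

section facts

set_option maxRecDepth 100000

theorem sl23N_pow : sl23N ^ 4 = 1 := by decide

theorem sl23_invol : ∀ w : SL23, w ≠ 1 → w * w = 1 → w = sl23N := by decide

theorem sl23_cases : ∀ g : SL23, g ^ 4 = 1 → g = 1 ∨ g = sl23N ∨ g * g = sl23N := by decide

end facts

/-- the derived group of `SL₂(ZMod 3)` is the set of elements of exponent `4`. -/
theorem mem_commutator_sl23_iff (g : SL23) : g ∈ commutator SL23 ↔ g ^ 4 = 1 := by
  constructor
  · intro hg
    obtain ⟨H, hH⟩ : ∃ H : Subgroup SL23, ∀ g, g ∈ H ↔ g ^ 4 = 1 :=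
      ⟨{ carrier := {g | g ^ 4 = 1}
         mul_mem' := fun {a b} ha hb => sl23_mul_pow a b ha hb
         one_mem' := one_pow 4
         inv_mem' := fun {a} ha => by
           show a⁻¹ ^ 4 = 1
           rw [inv_pow, show a ^ 4 = 1 from ha, inv_one] }, fun g => Iff.rfl⟩
    have hle : commutator SL23 ≤ H := by
      rw [commutator_eq_closure, Subgroup.closure_le]
      rintro _ ⟨g, h, rfl⟩
      exact (hH _).mpr (sl23_comm_pow g h)
    exact (hH g).mp (hle hg)
  · intro hg
    obtain ⟨x, y, rfl⟩ := sl23_gen g hg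
    have hc : ∀ a b : SL23, ⁅a, b⁆ ∈ commutator SL23 := fun a b =>
      Subgroup.commutator_mem_commutator (Subgroup.mem_top a) (Subgroup.mem_top b)
    exact mul_mem (pow_mem (hc _ _) _) (pow_mem (hc _ _) _)

/-- membership in the derived group transports along an isomorphism. -/
theorem mem_commutator_iff_of_mulEquiv {X Y : Type*} [Group X] [Group Y] (e : X ≃* Y) (g : X) :
    g ∈ commutator X ↔ e g ∈ commutator Y := by
  have h1 : (commutator X).map e.toMonoidHom = commutator Y := by
    rw [commutator_def, commutator_def, Subgroup.map_commutator,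
      Subgroup.map_top_of_surjective e.toMonoidHom e.surjective]
  rw [← h1]
  exact (Subgroup.mem_map_iff_mem (f := e.toMonoidHom) e.injective).symm

/-- [Q8-SL3x] -/
theorem pkgSL3x : PkgSL3x := by
  intro F _ _ hF
  obtain ⟨e⟩ := nonempty_mulEquiv_sl23 F hF
  obtain ⟨e₀⟩ : Nonempty (ZMod 3 ≃+* F) := ⟨ZMod.ringEquivOfPrime F Nat.prime_three hF⟩
  have hF1 : (-1 : F) ≠ 1 := by
    intro h
    have h2 : e₀ (-1) = e₀ 1 := by rw [map_neg, map_one, h]
    exact absurd (e₀.injective h2) (by decide)
  obtain ⟨z, hz⟩ : ∃ z : Matrix.SpecialLinearGroup (Fin 2) F,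
      (z : Matrix (Fin 2) (Fin 2) F) = -1 :=
    ⟨⟨-1, by simp [Matrix.det_fin_two]⟩, rfl⟩
  have hzz : z * z = 1 := by
    apply Subtype.ext
    rw [Matrix.SpecialLinearGroup.coe_mul, hz]
    simp
  have hz1 : z ≠ 1 := by
    intro h
    have h2 : (z : Matrix (Fin 2) (Fin 2) F) 0 0 = (1 : Matrix (Fin 2) (Fin 2) F) 0 0 := by
      rw [h]; rfl
    rw [hz] at h2
    simp at h2
    exact hF1 h2
  have hez : e z = sl23N :=
    sl23_invol (e z) (fun h => hz1 (e.injective (by rw [h, map_one])))
      (by rw [← map_mul, hzz, map_one])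
  refine ⟨z, ?_, ?_, ?_, ?_⟩
  · rw [mem_commutator_iff_of_mulEquiv e, mem_commutator_sl23_iff, hez]
    exact sl23N_pow
  · intro v
    rw [hz, Matrix.neg_mulVec, Matrix.one_mulVec]
  · intro M
    apply Subtype.ext
    rw [Matrix.SpecialLinearGroup.coe_mul, Matrix.SpecialLinearGroup.coe_mul, hz]
    simp
  · intro M hM
    have h4 := (mem_commutator_sl23_iff _).mp ((mem_commutator_iff_of_mulEquiv e M).mp hM)
    rcases sl23_cases (e M) h4 with h | h | h
    · left; exact e.injective (by rw [h, map_one])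
    · right; left; exact e.injective (by rw [h, hez])
    · right; right; exact e.injective (by rw [map_mul, h, hez])

end Cfsg.Agent.Lib.Helper85.SnB
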